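import Cfsg.Agent.KFacts.HN.Aut0
import Cfsg.Agent.H285.IF.HNa

/-!
# S5719, cell `hn`, part 2: the involutions of class 2B (helper285)

* `ratio` : a set of `32` vectors of `F_2^8` contains two with difference in `CD` (the Hoffman bound of the graph
  `srg(256, 60, 20, 12)`, by squares);
* `no_W0` : `IF A Γ` in `HN`, `W0 ∈ A`: `A` contains a 2A involution.
-/

set_option autoImplicit false
set_option maxRecDepth 100000

namespace Cfsg.Agent.H285.IFHNb

open Subgroup Cfsg.Agent.KFacts.HN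
open Cfsg.Agent.SporadicA.PermTab (allB allB_iff)

section comb

/-- the number of `y < n` with `y, y + z ∈ CD` -/
def cnt (z n : ℕ) : ℕ :=
  Nat.rec 0 (fun y ih => cond (Bool.and (tst CD 0 y) (tst CD z y)) (Nat.succ ih) ih) n

theorem cnt_succ (z n : ℕ) :
    cnt z (n + 1) = cond (Bool.and (tst CD 0 n) (tst CD z n)) (Nat.succ (cnt z n)) (cnt z n) := rfl

/-- the indicator of `CD` -/
def D (x : ℕ) : ℤ := if CD.testBit x = true then 1 else 0

theorem sum_cnt (z : ℕ) : ∀ n, ∑ y ∈ Finset.range n, D y * D (y ^^^ z) = (cnt z n : ℤ) := by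
  intro n
  induction n with
  | zero => rfl
  | succ n ih =>
    rw [Finset.sum_range_succ, ih, cnt_succ]
    have h1 := tst_iff (C := CD) (u := 0) (y := n)
    have h2 := tst_iff (C := CD) (u := z) (y := n)
    rw [Nat.zero_xor] at h1
    rw [Nat.xor_comm] at h2
    unfold D
    cases h3 : tst CD 0 n
    · rw [h3] at h1
      have h4 : ¬ CD.testBit n = true := fun h => by simpa using h1.2 h
      simp [h4]
    · rw [h3] at h1
      have h4 : CD.testBit n = true := h1.1 rfl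
      cases h5 : tst CD z n
      · rw [h5] at h2
        have h6 : ¬ CD.testBit (n ^^^ z) = true := fun h => by simpa using h2.2 h
        simp [h6]
      · rw [h5] at h2
        have h6 : CD.testBit (n ^^^ z) = true := h2.1 rfl
        simp [h4, h6]

theorem chk0 : cnt 0 256 = 60 := by decide +kernel

theorem chk : allB (fun z => cond (tst CD 0 z) true (cond (Nat.beq z 0) true (Nat.beq (cnt z 256) 12))) 256 = true := by
  decide +kernel

theorem cnt_of {z : ℕ} (hz : z < 256) (h0 : z ≠ 0) (h : CD.testBit z = false) : cnt z 256 = 12 := by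
  have h1 := (allB_iff _ _).1 chk z hz
  have h2 : tst CD 0 z = false := by
    cases h3 : tst CD 0 z
    · rfl
    · have h4 := tst_iff.1 h3
      rw [Nat.zero_xor, h] at h4
      exact absurd h4 (by decide)
  have h5 : Nat.beq z 0 = false := by
    cases h6 : Nat.beq z 0
    · rfl
    · exact absurd (Nat.eq_of_beq_eq_true h6) h0
  rw [h2, h5] at h1
  exact Nat.eq_of_beq_eq_true h1

theorem sum_shift {s : ℕ} (hs : s < 256) (f : ℕ → ℤ) :
    ∑ x ∈ Finset.range 256, f (x ^^^ s) = ∑ y ∈ Finset.range 256, f y := by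
  have h1 : ∀ x ∈ Finset.range 256, x ^^^ s ∈ Finset.range 256 := by
    intro x hx
    rw [Finset.mem_range] at hx ⊢
    exact Nat.xor_lt_two_pow (n := 8) hx hs
  refine Finset.sum_nbij' (fun x => x ^^^ s) (fun x => x ^^^ s) h1 h1 ?_ ?_ ?_
  · intro x _
    rw [Nat.xor_assoc, Nat.xor_self, Nat.xor_zero]
  · intro x _
    rw [Nat.xor_assoc, Nat.xor_self, Nat.xor_zero]
  · intro x _
    rfl

theorem D_sq (x : ℕ) : D x * D x = D x := by
  unfold D
  split_ifs <;> rfl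

theorem sum_D : ∑ y ∈ Finset.range 256, D y = 60 := by
  have h1 := sum_cnt 0 256
  rw [chk0] at h1
  have h2 : ((60 : ℕ) : ℤ) = 60 := rfl
  rw [← h2, ← h1]
  refine Finset.sum_congr rfl fun y _ => ?_
  rw [Nat.xor_zero, D_sq]

/-- no `32` vectors with all differences outside of `CD` -/
theorem ratio {S : Finset ℕ} (hS : ∀ s ∈ S, s < 256) (hc : S.card = 32)
    (hD : ∀ s ∈ S, ∀ s' ∈ S, s ≠ s' → CD.testBit (s ^^^ s') = false) : False := by
  have e1 : ∑ x ∈ Finset.range 256, ∑ s ∈ S, D (x ^^^ s) = 1920 := by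
    rw [Finset.sum_comm, Finset.sum_congr rfl (fun s hs => (sum_shift (hS s hs) D).trans sum_D), Finset.sum_const, hc]
    norm_num
  have e2 : ∑ x ∈ Finset.range 256, (∑ s ∈ S, D (x ^^^ s)) * (∑ s ∈ S, D (x ^^^ s)) = 13824 := by
    have h1 : ∀ x ∈ Finset.range 256, (∑ s ∈ S, D (x ^^^ s)) * (∑ s ∈ S, D (x ^^^ s)) =
        ∑ s ∈ S, ∑ s' ∈ S, D (x ^^^ s) * D (x ^^^ s') := fun x _ => Finset.sum_mul_sum _ _ _ _
    rw [Finset.sum_congr rfl h1, Finset.sum_comm]
    have h2 : ∀ s ∈ S, ∑ x ∈ Finset.range 256, ∑ s' ∈ S, D (x ^^^ s) * D (x ^^^ s') = 432 := by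
      intro s hs
      rw [Finset.sum_comm]
      have h3 : ∀ s' ∈ S, ∑ x ∈ Finset.range 256, D (x ^^^ s) * D (x ^^^ s') = if s = s' then 60 else 12 := by
        intro s' hs'
        have h4 := sum_shift (hS s hs) (fun y => D y * D (y ^^^ (s ^^^ s')))
        have h5 : ∀ x ∈ Finset.range 256, D (x ^^^ s) * D (x ^^^ s') =
            (fun y => D y * D (y ^^^ (s ^^^ s'))) (x ^^^ s) := by
          intro x _
          change _ = D (x ^^^ s) * D (x ^^^ s ^^^ (s ^^^ s'))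
          rw [Nat.xor_assoc x s, ← Nat.xor_assoc s s, Nat.xor_self, Nat.zero_xor]
        rw [Finset.sum_congr rfl h5, h4, sum_cnt]
        by_cases h6 : s = s'
        · rw [if_pos h6, h6, Nat.xor_self, chk0]
          rfl
        · rw [if_neg h6, cnt_of (Nat.xor_lt_two_pow (n := 8) (hS s hs) (hS s' hs')) (fun h7 => h6 (Nat.xor_eq_zero_iff.1 h7))
            (hD s hs s' hs' h6)]
          rfl
      rw [Finset.sum_congr rfl h3, ← Finset.add_sum_erase S _ hs, if_pos rfl,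
        Finset.sum_congr rfl (fun s' hs' => if_neg (Ne.symm (Finset.ne_of_mem_erase hs'))), Finset.sum_const,
        Finset.card_erase_of_mem hs, hc]
      norm_num
    rw [Finset.sum_congr rfl h2, Finset.sum_const, hc]
    norm_num
  have e3 : 0 ≤ ∑ x ∈ Finset.range 256, (∑ s ∈ S, D (x ^^^ s) - 8) * (∑ s ∈ S, D (x ^^^ s) - 8) :=
    Finset.sum_nonneg fun x _ => mul_self_nonneg _
  have e4 : ∑ x ∈ Finset.range 256, (∑ s ∈ S, D (x ^^^ s) - 8) * (∑ s ∈ S, D (x ^^^ s) - 8) =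
      ∑ x ∈ Finset.range 256, (∑ s ∈ S, D (x ^^^ s)) * (∑ s ∈ S, D (x ^^^ s)) -
      16 * ∑ x ∈ Finset.range 256, ∑ s ∈ S, D (x ^^^ s) + ∑ x ∈ Finset.range 256, (64 : ℤ) := by
    rw [Finset.mul_sum, ← Finset.sum_sub_distrib, ← Finset.sum_add_distrib]
    refine Finset.sum_congr rfl fun x _ => ?_
    ring
  rw [e4, e1, e2, Finset.sum_const, Finset.card_range] at e3
  norm_num at e3

end comb

open Cfsg.Agent.HN Cfsg.Agent.HN.Pres Cfsg.Agent.HN.P1408 Cfsg.Agent.HN.H0Basic Cfsg.Agent.HN.XMat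
open Cfsg.Agent.HN.XStruct Cfsg.Agent.HN.XWords Cfsg.Agent.HN.XQuot Cfsg.Agent.HN.XInst Cfsg.Agent.H209.Fxy

theorem sgn_mem {A : Subgroup Cfsg.Spor.HN} (hW : W0 ∈ A) (b : Bool) : sgn0 b ∈ A := by
  cases b
  · exact A.one_mem
  · exact hW

theorem r_sgn_mem {A : Subgroup Cfsg.Spor.HN} (hW : W0 ∈ A) {m : ℕ} {b : Bool} :
    r Q m * sgn0 b ∈ A ↔ r Q m ∈ A := A.mul_mem_cancel_right (sgn_mem hW b)

/-- `A` contains a mask of `CD` if `|A ∩ R| ≥ 64` -/
theorem exists_D {A : Subgroup Cfsg.Spor.HN} (hW : W0 ∈ A) (hc : 64 ≤ Nat.card (A ⊓ RS : Subgroup Cfsg.Spor.HN)) :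
    ∃ m < 256, CD.testBit m = true ∧ r Q m ∈ A := by
  classical
  by_contra hcon
  push Not at hcon
  set S : Finset ℕ := (Finset.range 256).filter (fun m => r Q m ∈ A) with hS
  have hmem : ∀ {m : ℕ}, m ∈ S ↔ m < 256 ∧ r Q m ∈ A := by
    intro m
    rw [hS, Finset.mem_filter, Finset.mem_range]
  have h1 : Nat.card (A ⊓ RS : Subgroup Cfsg.Spor.HN) ≤ Nat.card (S × Bool) := by
    refine Nat.card_le_card_of_surjective (fun p => (⟨r Q p.1 * sgn0 p.2, (r_sgn_mem hW).2 (hmem.1 p.1.2).2,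
      mem_RS.2 ⟨_, (hmem.1 p.1.2).1, _, rfl⟩⟩ : (A ⊓ RS : Subgroup Cfsg.Spor.HN))) ?_
    rintro ⟨x, hxA, hxR⟩
    obtain ⟨m, hm, b, rfl⟩ := mem_RS.1 hxR
    exact ⟨(⟨m, hmem.2 ⟨hm, (r_sgn_mem hW).1 hxA⟩⟩, b), rfl⟩
  have hS1 : Nat.card S = S.card := by rw [Nat.card_eq_fintype_card, Fintype.card_coe]
  have hB : Nat.card Bool = 2 := by rw [Nat.card_eq_fintype_card, Fintype.card_bool]
  rw [Nat.card_prod, hS1, hB] at h1
  obtain ⟨S', hS', hc'⟩ := Finset.exists_subset_card_eq (show 32 ≤ S.card by omega)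
  refine ratio (S := S') (fun s hs => (hmem.1 (hS' hs)).1) hc' ?_
  intro s hs s' hs' _
  obtain ⟨h2, h3⟩ := hmem.1 (hS' hs)
  obtain ⟨h4, h5⟩ := hmem.1 (hS' hs')
  have h6 : s ^^^ s' < 256 := Nat.xor_lt_two_pow (n := 8) h2 h4
  obtain ⟨c, hcc⟩ := r_mul (a := s) (b := s')
  have h7 : r Q (s ^^^ s') ∈ A := by
    rw [← r_sgn_mem hW (b := c), ← hcc]
    exact A.mul_mem h3 h5
  cases h8 : CD.testBit (s ^^^ s')
  · rfl
  · exact absurd h7 (hcon _ h6 h8)

/-- `RS / ⟨W0⟩` is abelian -/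
theorem comm_RS {x y : Cfsg.Spor.HN} (hx : x ∈ RS) (hy : y ∈ RS) : ∃ c : Bool, x * y * x⁻¹ = y * sgn0 c := by
  have hxP := RS_le_PP hx
  have hyP := RS_le_PP hy
  apply eq_of_π hyP (PP.mul_mem (PP.mul_mem hxP hyP) (PP.inv_mem hxP))
  obtain ⟨m, hm, b, rfl⟩ := mem_RS.1 hx
  obtain ⟨m', hm', b', rfl⟩ := mem_RS.1 hy
  rw [π_mul (comm_mul (mem_PP.1 hxP) (mem_PP.1 hyP)) (comm_inv (mem_PP.1 hxP)),
    π_mul (mem_PP.1 hxP) (mem_PP.1 hyP), π_inv (mem_PP.1 hxP), π_r_sgn, π_r_sgn, hyp.toBas.r_comm m m',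
    mul_inv_cancel_right]

theorem no_of_relIndex {A : Subgroup Cfsg.Spor.HN} (hW : W0 ∈ A) (hA : A.relIndex PP ≤ 37) :
    ∃ m < 256, CD.testBit m = true ∧ r Q m ∈ A := by
  classical
  by_contra hcon
  have hne : A.relIndex PP ≠ 0 := Subgroup.index_ne_zero_of_finite
  -- cardinalities
  have h64 : Nat.card (A ⊓ RS : Subgroup Cfsg.Spor.HN) < 64 := by
    by_contra h
    exact hcon (exists_D hW (by omega))
  have hdvd : Nat.card (A ⊓ RS : Subgroup Cfsg.Spor.HN) ∣ 2 ^ 9 := by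
    have h1 := Subgroup.card_dvd_of_le (inf_le_right : A ⊓ RS ≤ RS)
    rwa [card_RS, show (512 : ℕ) = 2 ^ 9 by norm_num] at h1
  have h32 : Nat.card (A ⊓ RS : Subgroup Cfsg.Spor.HN) ≤ 32 := by
    obtain ⟨k, hk, he⟩ := (Nat.dvd_prime_pow Nat.prime_two).1 hdvd
    rw [he] at h64 ⊢
    have h2 : k < 6 := by
      by_contra h3
      have h4 : 2 ^ 6 ≤ 2 ^ k := Nat.pow_le_pow_right (by norm_num) (by omega)
      omega
    calc 2 ^ k ≤ 2 ^ 5 := Nat.pow_le_pow_right (by norm_num) (by omega)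
      _ = 32 := by norm_num
  have hPPc : Nat.card (A.subgroupOf PP) * A.relIndex PP = 3686400 := by
    rw [← card_PP]
    exact (A.subgroupOf PP).card_mul_index
  have hker : Nat.card (ρ.ker.subgroupOf (A.subgroupOf PP)) ≤ Nat.card (A ⊓ RS : Subgroup Cfsg.Spor.HN) := by
    refine Nat.card_le_card_of_injective (fun x => (⟨((x : A.subgroupOf PP) : PP), ?_, ?_⟩ :
      (A ⊓ RS : Subgroup Cfsg.Spor.HN))) ?_
    · exact (x : A.subgroupOf PP).2
    · exact ⟨((x : A.subgroupOf PP) : PP), x.2, rfl⟩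
    · intro x y hxy
      have h1 := congrArg (fun z : (A ⊓ RS : Subgroup Cfsg.Spor.HN) => (z : Cfsg.Spor.HN)) hxy
      exact Subtype.ext (Subtype.ext (Subtype.ext h1))
  have himg : Nat.card (ρ.ker.subgroupOf (A.subgroupOf PP)) * Nat.card (img A) = Nat.card (A.subgroupOf PP) := by
    rw [img, ← Subgroup.relIndex_ker]
    exact (ρ.ker.subgroupOf (A.subgroupOf PP)).card_mul_index
  have hidx : Nat.card (img A) * (img A).index = 7200 := by
    rw [← card_Lq]
    exact (img A).card_mul_index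
  have hK : 99633 ≤ Nat.card (A.subgroupOf PP) := by
    by_contra h
    have h1 : Nat.card (A.subgroupOf PP) * A.relIndex PP ≤ 99632 * 37 := Nat.mul_le_mul (by omega) hA
    omega
  have hI : 3114 ≤ Nat.card (img A) := by
    by_contra h
    have h1 : Nat.card (ρ.ker.subgroupOf (A.subgroupOf PP)) * Nat.card (img A) ≤ 32 * 3113 :=
      Nat.mul_le_mul (hker.trans h32) (by omega)
    omega
  have hi2 : (img A).index ≤ 2 := by
    by_contra h
    have h1 : 3114 * 3 ≤ Nat.card (img A) * (img A).index := Nat.mul_le_mul hI (by omega)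
    omega
  have hnormal : (img A).Normal := by
    rcases Nat.lt_or_ge (img A).index 2 with h | h
    · have h1 : (img A).index ≠ 0 := by
        intro h2
        rw [h2, mul_zero] at hidx
        omega
      rw [Subgroup.index_eq_one.1 (show (img A).index = 1 by omega)]
      infer_instance
    · exact Subgroup.normal_of_index_eq_two (by omega)
  have hLL : LL ≤ img A := by
    apply LL_le_of_normal
    intro h
    rw [h, Subgroup.card_bot] at hI
    omega
  -- `A ⊓ RS` is normalised by `MM`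
  have hn : ∀ u ∈ MM, ∀ x ∈ A ⊓ RS, u * x * u⁻¹ ∈ A ⊓ RS := by
    intro u hu x hx
    obtain ⟨huP, huL⟩ := mem_MM.1 hu
    obtain ⟨v, hvP, hvA, hv⟩ := mem_img.1 (hLL huL)
    refine ⟨?_, conj_RS huP hx.2⟩
    -- `u = v y`
    have hy : v⁻¹ * u ∈ RS := by
      refine ⟨⟨v, hvP⟩⁻¹ * ⟨u, huP⟩, ?_, rfl⟩
      change ρ _ = 1
      rw [map_mul, map_inv, hv, inv_mul_cancel]
    obtain ⟨c, hc⟩ := comm_RS hy hx.2
    have h1 : u * x * u⁻¹ = v * ((v⁻¹ * u) * x * (v⁻¹ * u)⁻¹) * v⁻¹ := by group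
    rw [h1, hc]
    exact A.mul_mem (A.mul_mem hvA (A.mul_mem hx.1 (sgn_mem hW c))) (A.inv_mem hvA)
  rcases irr inf_le_right hn with h | h
  · -- too small
    have h1 : Nat.card (A ⊓ RS : Subgroup Cfsg.Spor.HN) ≤ 2 := by
      have h2 : ((A ⊓ RS : Subgroup Cfsg.Spor.HN) : Set Cfsg.Spor.HN) ⊆ {1, W0} := by
        intro x hx
        rcases h x hx with h3 | h3
        · exact Or.inl h3
        · exact Or.inr h3
      calc Nat.card (A ⊓ RS : Subgroup Cfsg.Spor.HN) = ((A ⊓ RS : Subgroup Cfsg.Spor.HN) : Set Cfsg.Spor.HN).ncard := rfl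
        _ ≤ ({1, W0} : Set Cfsg.Spor.HN).ncard := Set.ncard_le_ncard h2 (Set.toFinite _)
        _ ≤ 2 := (Set.ncard_insert_le _ _).trans (by rw [Set.ncard_singleton])
    have h2 : Nat.card (ρ.ker.subgroupOf (A.subgroupOf PP)) * Nat.card (img A) ≤ 2 * Nat.card (img A) :=
      Nat.mul_le_mul_right _ (hker.trans h1)
    have h3 : Nat.card (img A) ≤ 7200 := by
      rw [← card_Lq]
      exact Subgroup.card_le_card_group _
    omega
  · have h1 : r Q 1 ∈ A := by
      have h2 : r Q 1 ∈ A ⊓ RS := by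
        rw [h]
        exact r_mem_RS (by norm_num)
      exact h2.1
    exact hcon ⟨1, by norm_num, by decide +kernel, h1⟩

/-- **`W0 ∈ A`: there is a 2A involution in `A`.** -/
theorem exists_2A {A : Subgroup Cfsg.Spor.HN} (hW : W0 ∈ A) (hA : A.relIndex PP ≤ 37) :
    ∃ s ∈ A, IsConj s (NormalH.ψ τ) := by
  obtain ⟨m, hm, h1, h2⟩ := no_of_relIndex hW hA
  refine ⟨_, h2, ?_⟩
  have h3 := kind_D hm h1 false
  have h4 := inst.t_eq
  change Q 0 = NormalH.ψ τ at h4
  rw [h4, show sgn0 false = 1 from rfl, mul_one] at h3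
  exact h3.symm

variable {A : Subgroup Cfsg.Spor.HN} {Γ : Subgroup (MulAut Cfsg.Spor.HN)}

theorem order_W0 : orderOf W0 = 2 := orderOf_eq_prime (by rw [pow_two]; exact W0_sq) W0_ne

theorem no_W0 (h : IF A Γ) (hs : W0 ∈ A) : False := by
  have := IFHNa.simpleHN
  obtain ⟨-, -, -, -, h5⟩ := H999.IFB.IF.E2' h IFHNa.hna hs order_W0
  have h6 : A.relIndex PP ^ 5 < PP.index := (h5 PP le_rfl).1
  have h7 : PP.index = 74064375 := by
    have h8 := PP.index_mul_card
    rw [card_PP, S1701.result.2, show 273030912000000 = 74064375 * 3686400 by norm_num] at h8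
    exact Nat.eq_of_mul_eq_mul_right (by norm_num) h8
  rw [h7] at h6
  have h9 : A.relIndex PP ≤ 37 := by
    by_contra hcon
    have h10 : 38 ^ 5 ≤ A.relIndex PP ^ 5 := Nat.pow_le_pow_left (by omega) 5
    omega
  obtain ⟨s, hsA, hc⟩ := exists_2A hs h9
  exact IFHNa.no_2A h hsA hc

/-- **`|A|` is odd.** -/
theorem killE : KillE Cfsg.Spor.HN := by
  rintro A Γ h ⟨t, htA, ht⟩
  rcases Classes.inv_class ht with hc | hc
  · exact IFHNa.no_2A h htA hc
  · obtain ⟨g, hg⟩ := isConj_iff.1 hc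
    refine no_W0 (h.map (MulAut.conj g)) ?_
    exact ⟨t, htA, hg⟩

end Cfsg.Agent.H285.IFHNb
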